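import Mathlib
import Cfsg.Agent.Lib.Helper24.ES3.Defs

set_option autoImplicit false

namespace Cfsg.Agent.Lib.Helper24.ES3

variable {G : Type*} [Group G]

/-- `h` acts on `⟨z, w⟩` by the integer matrix with columns `(i, j)`, `(k, l)`. -/
def C1Act (z w h : G) (i j k l : ℤ) : Prop :=
  h * z * h⁻¹ = z ^ i * w ^ j ∧ h * w * h⁻¹ = z ^ k * w ^ l

theorem C1Act.cast {z w h : G} {i j k l i' j' k' l' : ℤ} (H : C1Act z w h i j k l)
    (hi : i = i') (hj : j = j') (hk : k = k') (hl : l = l') : C1Act z w h i' j' k' l' := by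
  subst hi hj hk hl
  exact H

theorem C1_conj_word {z w : G} (hzw : z * w = w * z) (h : G) {i j k l : ℤ}
    (H : C1Act z w h i j k l) (m n : ℤ) :
    h * (z ^ m * w ^ n) * h⁻¹ = z ^ (i * m + k * n) * w ^ (j * m + l * n) := by
  have hc : Commute z w := hzw
  have e1 : h * (z ^ m * w ^ n) * h⁻¹ = (h * z * h⁻¹) ^ m * (h * w * h⁻¹) ^ n := by
    have := map_mul (MulAut.conj h) (z ^ m) (w ^ n)
    rw [map_zpow, map_zpow] at this
    simp only [MulAut.conj_apply] at this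
    exact this
  rw [e1, H.1, H.2]
  rw [(hc.zpow_zpow i j).mul_zpow, (hc.zpow_zpow k l).mul_zpow]
  rw [← zpow_mul, ← zpow_mul, ← zpow_mul, ← zpow_mul]
  have hc2 : Commute (w ^ (j * m)) (z ^ (k * n)) := (hc.zpow_zpow (k * n) (j * m)).symm
  calc z ^ (i * m) * w ^ (j * m) * (z ^ (k * n) * w ^ (l * n))
      = z ^ (i * m) * (w ^ (j * m) * z ^ (k * n)) * w ^ (l * n) := by group
    _ = z ^ (i * m) * (z ^ (k * n) * w ^ (j * m)) * w ^ (l * n) := by rw [hc2.eq]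
    _ = (z ^ (i * m) * z ^ (k * n)) * (w ^ (j * m) * w ^ (l * n)) := by group
    _ = _ := by rw [← zpow_add, ← zpow_add]

theorem C1Act.comp {z w : G} (hzw : z * w = w * z) {h₁ h₂ : G} {i₁ j₁ k₁ l₁ i₂ j₂ k₂ l₂ : ℤ}
    (H₁ : C1Act z w h₁ i₁ j₁ k₁ l₁) (H₂ : C1Act z w h₂ i₂ j₂ k₂ l₂) :
    C1Act z w (h₁ * h₂) (i₁ * i₂ + k₁ * j₂) (j₁ * i₂ + l₁ * j₂) (i₁ * k₂ + k₁ * l₂)
      (j₁ * k₂ + l₁ * l₂) := by
  constructor
  · have : h₁ * h₂ * z * (h₁ * h₂)⁻¹ = h₁ * (h₂ * z * h₂⁻¹) * h₁⁻¹ := by group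
    rw [this, H₂.1, C1_conj_word hzw h₁ H₁]
  · have : h₁ * h₂ * w * (h₁ * h₂)⁻¹ = h₁ * (h₂ * w * h₂⁻¹) * h₁⁻¹ := by group
    rw [this, H₂.2, C1_conj_word hzw h₁ H₁]

theorem C1Act.one (z w : G) : C1Act z w 1 1 0 0 1 := by
  constructor <;> simp

theorem C1Act.powU {z w : G} (hzw : z * w = w * z) {h : G} {k : ℤ} (H : C1Act z w h 1 0 k 1)
    (n : ℕ) : C1Act z w (h ^ n) 1 0 (n * k) 1 := by
  induction n with
  | zero => simpa using C1Act.one z w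
  | succ n ih =>
    rw [pow_succ]
    exact (ih.comp hzw H).cast (by ring) (by ring) (by push_cast; ring) (by ring)

theorem C1Act.powL {z w : G} (hzw : z * w = w * z) {h : G} {j : ℤ} (H : C1Act z w h 1 j 0 1)
    (n : ℕ) : C1Act z w (h ^ n) 1 (n * j) 0 1 := by
  induction n with
  | zero => simpa using C1Act.one z w
  | succ n ih =>
    rw [pow_succ]
    exact (ih.comp hzw H).cast (by ring) (by push_cast; ring) (by ring) (by ring)

/-- C1 -/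
theorem diag {p : ℕ} {z w y g : G} (hzw : z * w = w * z) (hz : z ^ p = 1) (hw : w ^ p = 1)
    (hyz : y * z * y⁻¹ = z) (hyw : y * w * y⁻¹ = w * z)
    (hgw : g * w * g⁻¹ = w) (hgz : g * z * g⁻¹ = z * w)
    {a a' : ℕ} (haa : a * a' ≡ 1 [MOD p]) :
    ∃ d : G, d * z * d⁻¹ = z ^ a ∧ d * w * d⁻¹ = w ^ a' := by
  have Hy : C1Act z w y 1 0 1 1 := by
    constructor
    · simpa using hyz
    · simpa [hzw] using hyw
  have Hg : C1Act z w g 1 1 0 1 := by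
    constructor
    · simpa using hgz
    · simpa using hgw
  have Hyi : C1Act z w y⁻¹ 1 0 (-1) 1 := by
    constructor
    · have : y⁻¹ * z * y⁻¹⁻¹ = y⁻¹ * (y * z * y⁻¹) * y := by rw [hyz]; simp
      rw [this]; group
    · have h1 : y * (z⁻¹ * w) * y⁻¹ = w := by
        have : y * (z⁻¹ * w) * y⁻¹ = (y * z * y⁻¹)⁻¹ * (y * w * y⁻¹) := by group
        rw [this, hyz, hyw, ← hzw]; group
      have : y⁻¹ * w * y⁻¹⁻¹ = y⁻¹ * (y * (z⁻¹ * w) * y⁻¹) * y := by rw [h1]; simp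
      rw [this]; group
  have Hgi : C1Act z w g⁻¹ 1 (-1) 0 1 := by
    constructor
    · have h1 : g * (z * w⁻¹) * g⁻¹ = z := by
        have : g * (z * w⁻¹) * g⁻¹ = (g * z * g⁻¹) * (g * w * g⁻¹)⁻¹ := by group
        rw [this, hgz, hgw]; group
      have : g⁻¹ * z * g⁻¹⁻¹ = g⁻¹ * (g * (z * w⁻¹) * g⁻¹) * g := by rw [h1]; simp
      rw [this]; group
    · have : g⁻¹ * w * g⁻¹⁻¹ = g⁻¹ * (g * w * g⁻¹) * g := by rw [hgw]; simp
      rw [this]; group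
  have Hya := Hy.powU hzw a
  have Hga := Hgi.powL hzw a'
  have H := ((((Hya.comp hzw Hga).comp hzw Hya).comp hzw Hyi).comp hzw Hg).comp hzw Hyi
  obtain ⟨t, ht⟩ : ∃ t : ℤ, (1 : ℤ) - a * a' = p * t := by
    have := (Nat.modEq_iff_dvd.1 haa)
    obtain ⟨t, ht⟩ := this
    exact ⟨t, by push_cast at ht; linarith⟩
  have hzp : ∀ t : ℤ, z ^ ((p : ℤ) * t) = 1 := fun t => by
    rw [zpow_mul, zpow_natCast, hz, one_zpow]
  have hwp : ∀ t : ℤ, w ^ ((p : ℤ) * t) = 1 := fun t => by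
    rw [zpow_mul, zpow_natCast, hw, one_zpow]
  have H' := H.cast (i' := (a : ℤ) + p * (a * t)) (j' := p * t) (k' := p * (-t)) (l' := a')
    (by linear_combination (a : ℤ) * ht) (by linear_combination ht) (by linear_combination -ht)
    (by ring)
  refine ⟨y ^ a * g⁻¹ ^ a' * y ^ a * y⁻¹ * g * y⁻¹, ?_, ?_⟩
  · rw [H'.1, zpow_add, hzp, hwp, zpow_natCast]; simp
  · rw [H'.2, hzp, zpow_natCast]; simp

end Cfsg.Agent.Lib.Helper24.ES3
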